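import Cfsg.Agent.LieClassical.OrthFinite
import Cfsg.Agent.LieClassical.QuadForms
import Cfsg.Agent.LieClassical.OrthForms
import Cfsg.Agent.LieClassical.QuadCount
import Cfsg.Agent.H436.Names

/-!
# S3691-O8R, box ORD-V: the stabiliser of a nonsingular vector in `Ω₈⁺(q)` by orders (helper886)

* `exists_omega` : the elements of `E Q` as elements of `Omega F Q`;
* `card_stab` : `|Ω| = |Ω_w| (q⁷ - q³)`;
* `mem_of_card` : a subgroup `R` of `PΩ₈⁺(q)` which fixes the point `⟨w⟩`, of order at least `|PSp₆(q)|`, contains the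
  image of `Ω_w`.
-/

set_option autoImplicit false
set_option linter.unusedSectionVars false

namespace Cfsg.Agent.H886.O8R

open Cfsg QuadraticMap Cfsg.Agent.OrdDiv Cfsg.Agent.H436
open Cfsg.Agent.LieClassical.OrthCore Cfsg.Agent.LieClassical.OrthTrans Cfsg.Agent.LieClassical.OrthFinite

variable {F : Type} [Field F] [Fintype F]

/-- the index type -/
abbrev J8 : Type := Fin 4 ⊕ Fin 4

/-- the form as a `QuadraticForm` -/
abbrev QF (F : Type) [Field F] : QuadraticForm F (J8 → F) := LieClassical.QuadForms.plusForm 4 F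

theorem coe_QF : ⇑(QF F) = quadFormPlus 4 F := LieClassical.QuadForms.coe_plusForm 4

/-- the linear action of `Ω` -/
noncomputable def om (F : Type) [Field F] : Omega F (quadFormPlus 4 F) →* ((J8 → F) ≃ₗ[F] (J8 → F)) :=
  ((glEquiv J8 F).toMonoidHom.comp (isometryGroup F (quadFormPlus 4 F)).subtype).comp (Omega F (quadFormPlus 4 F)).subtype

theorem om_apply (x : Omega F (quadFormPlus 4 F)) (v : J8 → F) :
    om F x v = (((x : isometryGroup F (quadFormPlus 4 F)) : Matrix.GeneralLinearGroup J8 F) : Matrix J8 J8 F).mulVec v := rfl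

theorem Q_om (x : Omega F (quadFormPlus 4 F)) (v : J8 → F) : quadFormPlus 4 F (om F x v) = quadFormPlus 4 F v :=
  mem_isometryGroup_iff.1 (x : isometryGroup F (quadFormPlus 4 F)).2 v

theorem nd_QF : Nondeg (QF F) := by
  have h : QF F = LieClassical.OrthForms.plusForm 4 F := DFunLike.coe_injective
    (coe_QF.trans (LieClassical.OrthForms.coe_plusForm 4 F).symm)
  rw [h]
  exact LieClassical.OrthForms.nondeg_plusForm 4 F

theorem good_QF : Good (QF F) := good_of_finite nd_QF (by
  rw [Module.finrank_fintype_fun_eq_card, Fintype.card_sum, Fintype.card_fin]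
  norm_num)

/-- the elements of `E Q` are elements of `Omega F Q` -/
theorem exists_omega {g : (J8 → F) ≃ₗ[F] (J8 → F)} (hg : g ∈ E (QF F)) :
    ∃ x : Omega F (quadFormPlus 4 F), om F x = g := by
  have h1 : g ∈ ⁅O (QF F), O (QF F)⁆ := by rw [good_QF.commutator_eq_E]; exact hg
  rw [← map_Omega] at h1
  obtain ⟨y, hy, h2⟩ := h1
  have key : ∀ Q' : (J8 → F) → F, Q' = ⇑(QF F) → ∃ x : Omega F Q',
      glEquiv J8 F ((x : isometryGroup F Q') : Matrix.GeneralLinearGroup J8 F) = g := by
    rintro _ rfl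
    exact ⟨⟨y, hy⟩, h2⟩
  exact key _ coe_QF.symm

/-- transitivity -/
theorem exists_map {v w : J8 → F} (hw : quadFormPlus 4 F w ≠ 0) (h : quadFormPlus 4 F v = quadFormPlus 4 F w) :
    ∃ x : Omega F (quadFormPlus 4 F), om F x w = v := by
  have h0 : ∀ u : J8 → F, quadFormPlus 4 F u ≠ 0 → u ≠ 0 := by
    rintro u hu rfl
    apply hu
    rw [← coe_QF]
    exact map_zero _
  obtain ⟨g, hg, h1⟩ := good_QF.trans_norm (Q := QF F) (h0 w hw) (h0 v (by rw [h]; exact hw))
    (by rw [coe_QF]; exact h.symm)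
  obtain ⟨x, hx⟩ := exists_omega hg
  exact ⟨x, by rw [hx, h1]⟩

/-- the number of vectors of given nonzero norm -/
theorem card_level {c : F} (hc : c ≠ 0) :
    Nat.card {v : J8 → F // quadFormPlus 4 F v = c} = Fintype.card F ^ 7 - Fintype.card F ^ 3 := by
  classical
  have h := LieClassical.QuadCount.card_plus (F := F) 4 c
  rw [if_neg hc, add_zero] at h
  have hq : 0 < Fintype.card F := Fintype.card_pos
  have h1 : Fintype.card F ^ (2 * 4) = Fintype.card F * Fintype.card F ^ 7 := by ring
  have h2 : Fintype.card F ^ 4 = Fintype.card F * Fintype.card F ^ 3 := by ring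
  rw [h1, h2, ← mul_add] at h
  have h3 := Nat.eq_of_mul_eq_mul_left hq h
  exact Nat.eq_sub_of_add_eq h3

/-- the stabiliser of a vector -/
noncomputable def Xw (w : J8 → F) : Subgroup (Omega F (quadFormPlus 4 F)) where
  carrier := {x | om F x w = w}
  one_mem' := by rw [Set.mem_ofPred_eq, map_one]; rfl
  mul_mem' := by
    intro x y hx hy
    rw [Set.mem_ofPred_eq] at hx hy ⊢
    rw [map_mul, LinearEquiv.mul_apply, hy, hx]
  inv_mem' := by
    intro x hx
    rw [Set.mem_ofPred_eq] at hx ⊢
    have h : om F x⁻¹ (om F x w) = w := by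
      rw [← LinearEquiv.mul_apply, ← map_mul, inv_mul_cancel, map_one]; rfl
    rwa [hx] at h

theorem mem_Xw {w : J8 → F} {x : Omega F (quadFormPlus 4 F)} : x ∈ Xw w ↔ om F x w = w := Iff.rfl

/-- **orbit and stabiliser** for a subgroup `H` of `Ω` -/
theorem card_orbit (H : Subgroup (Omega F (quadFormPlus 4 F))) (w : J8 → F) :
    Nat.card {v : J8 → F // ∃ x ∈ H, om F x w = v} * Nat.card (H ⊓ Xw w : Subgroup _) = Nat.card H := by
  classical
  let A : MulAction H (J8 → F) := MulAction.compHom (J8 → F) ((om F).comp H.subtype)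
  let A' : SMul H (J8 → F) := A.toSMul
  have h1 : Nat.card (MulAction.orbit H w) * Nat.card (MulAction.stabilizer H w) = Nat.card H := by
    rw [← Nat.card_prod]
    exact Nat.card_congr (MulAction.orbitProdStabilizerEquivGroup H w)
  rw [← h1]
  congr 1
  · refine Nat.card_congr (Equiv.subtypeEquivRight fun v => ?_)
    constructor
    · rintro ⟨x, hx, rfl⟩
      exact ⟨⟨x, hx⟩, rfl⟩
    · rintro ⟨x, rfl⟩
      exact ⟨x, x.2, rfl⟩
  · have h2 : (MulAction.stabilizer H w).map H.subtype = H ⊓ Xw w := by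
      ext x
      constructor
      · rintro ⟨y, hy, rfl⟩
        exact ⟨y.2, hy⟩
      · rintro ⟨hx, hx'⟩
        exact ⟨⟨x, hx⟩, hx', rfl⟩
    rw [← h2]
    exact (Nat.card_congr ((MulAction.stabilizer H w).equivMapOfInjective H.subtype H.subtype_injective).toEquiv).symm

/-- **`|Ω| = (q⁷ - q³) |Ω_w|`** -/
theorem card_stab {w : J8 → F} (hw : quadFormPlus 4 F w ≠ 0) :
    (Fintype.card F ^ 7 - Fintype.card F ^ 3) * Nat.card (Xw w) = Nat.card (Omega F (quadFormPlus 4 F)) := by
  have h := card_orbit (⊤ : Subgroup (Omega F (quadFormPlus 4 F))) w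
  rw [top_inf_eq, Subgroup.card_top] at h
  rw [← h, ← card_level hw]
  congr 1
  refine Nat.card_congr (Equiv.subtypeEquivRight fun v => ?_)
  constructor
  · intro hv
    obtain ⟨x, hx⟩ := exists_map hw hv
    exact ⟨x, Subgroup.mem_top x, hx⟩
  · rintro ⟨x, -, rfl⟩
    exact Q_om x w

/-! ### subgroups of `PΩ₈⁺(q)` -/

/-- the projection -/
noncomputable abbrev mkT (F : Type) [Field F] [Fintype F] :
    Omega F (quadFormPlus 4 F) →* POmega F (quadFormPlus 4 F) :=
  QuotientGroup.mk' (Subgroup.center (Omega F (quadFormPlus 4 F)))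

/-- **a subgroup of large order which fixes the point `⟨w⟩`** contains the image of `Ω_w` -/
theorem mem_of_card {R : Subgroup (POmega F (quadFormPlus 4 F))} {w : J8 → F} (hw : quadFormPlus 4 F w ≠ 0)
    (hR : ∀ x : Omega F (quadFormPlus 4 F), mkT F x ∈ R → om F x w = w ∨ om F x w = -w)
    (hcard : Nat.gcd 2 (Fintype.card F - 1) * Nat.card (POmega F (quadFormPlus 4 F)) ≤
      (Fintype.card F ^ 7 - Fintype.card F ^ 3) * Nat.card R) {x : Omega F (quadFormPlus 4 F)} (hx : om F x w = w) :
    mkT F x ∈ R := by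
  classical
  have hfin : Finite (Omega F (quadFormPlus 4 F)) := inferInstance
  have hq := Fintype.one_lt_card (α := F)
  have hpos : 0 < Fintype.card F ^ 7 - Fintype.card F ^ 3 :=
    Nat.sub_pos_of_lt (Nat.pow_lt_pow_right hq (by norm_num))
  set H : Subgroup (Omega F (quadFormPlus 4 F)) := R.comap (mkT F) with hH
  set Z := Subgroup.center (Omega F (quadFormPlus 4 F)) with hZ
  -- the orders
  have h1 : Nat.card H = Nat.card R * Nat.card Z := by
    have h2 : H.index = R.index := Subgroup.index_comap_of_surjective _ (QuotientGroup.mk'_surjective _)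
    have h3 := H.card_mul_index
    have h4 := R.card_mul_index
    have h5 : Nat.card (Omega F (quadFormPlus 4 F)) = Nat.card (POmega F (quadFormPlus 4 F)) * Nat.card Z :=
      Subgroup.card_eq_card_quotient_mul_card_subgroup Z
    have h6 : 0 < H.index := Nat.pos_of_ne_zero Subgroup.index_ne_zero_of_finite
    apply Nat.eq_of_mul_eq_mul_right h6
    rw [h3, h5, ← h4, h2]
    ring
  have h5 : Nat.card (Omega F (quadFormPlus 4 F)) = Nat.card (POmega F (quadFormPlus 4 F)) * Nat.card Z :=
    Subgroup.card_eq_card_quotient_mul_card_subgroup Z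
  -- the orbit of `w`
  have h2 : Nat.card {v : J8 → F // ∃ x ∈ H, om F x w = v} ≤ Nat.gcd 2 (Fintype.card F - 1) := by
    have h3 : Nat.card {v : J8 → F // ∃ x ∈ H, om F x w = v} ≤ Nat.card ({w, -w} : Finset (J8 → F)) := by
      refine Nat.card_le_card_of_injective (fun v => ⟨v.1, ?_⟩) fun a b hab => Subtype.ext (congrArg (fun z => z.1) hab)
      obtain ⟨v, y, hy, rfl⟩ := v
      rw [Finset.mem_insert, Finset.mem_singleton]
      exact hR y hy
    refine h3.trans ?_
    rw [Nat.card_eq_fintype_card, Fintype.card_coe]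
    by_cases h2F : (2 : F) = 0
    · have h4 : -w = w := by
        have h5 : w + w = 0 := by
          rw [← two_smul F w, h2F, zero_smul]
        exact neg_eq_of_add_eq_zero_left h5
      rw [h4, Finset.pair_eq_singleton, Finset.card_singleton]
      exact Nat.gcd_pos_of_pos_left _ (by norm_num)
    · have h4 : Nat.gcd 2 (Fintype.card F - 1) = 2 := by
        have h5 : Fintype.card F % 2 = 1 := by
          rw [FiniteField.odd_card_of_char_ne_two]
          intro h6
          apply h2F
          have h7 := ringChar.spec F 2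
          rw [h6] at h7
          exact_mod_cast h7.2 dvd_rfl
        exact Nat.gcd_eq_left (by omega)
      rw [h4]
      exact Finset.card_le_two
  have h3 := card_orbit H w
  have h4 := card_stab hw
  have h6 : Nat.card (Xw w) ≤ Nat.card (H ⊓ Xw w : Subgroup _) := by
    have h7 : 0 < Nat.gcd 2 (Fintype.card F - 1) := Nat.gcd_pos_of_pos_left _ (by norm_num)
    refine Nat.le_of_mul_le_mul_left (c := (Fintype.card F ^ 7 - Fintype.card F ^ 3) * Nat.gcd 2 (Fintype.card F - 1)) ?_
      (Nat.mul_pos hpos h7)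
    calc (Fintype.card F ^ 7 - Fintype.card F ^ 3) * Nat.gcd 2 (Fintype.card F - 1) * Nat.card (Xw w) =
        Nat.gcd 2 (Fintype.card F - 1) * ((Fintype.card F ^ 7 - Fintype.card F ^ 3) * Nat.card (Xw w)) := by ring
      _ = Nat.gcd 2 (Fintype.card F - 1) * Nat.card (POmega F (quadFormPlus 4 F)) * Nat.card Z := by rw [h4, h5]; ring
      _ ≤ (Fintype.card F ^ 7 - Fintype.card F ^ 3) * Nat.card R * Nat.card Z := Nat.mul_le_mul_right _ hcard
      _ = (Fintype.card F ^ 7 - Fintype.card F ^ 3) * Nat.card H := by rw [h1]; ring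
      _ = (Fintype.card F ^ 7 - Fintype.card F ^ 3) * (Nat.card {v : J8 → F // ∃ x ∈ H, om F x w = v} *
          Nat.card (H ⊓ Xw w : Subgroup _)) := by rw [h3]
      _ ≤ (Fintype.card F ^ 7 - Fintype.card F ^ 3) * (Nat.gcd 2 (Fintype.card F - 1) *
          Nat.card (H ⊓ Xw w : Subgroup _)) := Nat.mul_le_mul_left _ (Nat.mul_le_mul_right _ h2)
      _ = _ := by ring
  have h7 : H ⊓ Xw w = Xw w := Subgroup.eq_of_le_of_card_ge inf_le_right h6
  have h8 : x ∈ H ⊓ Xw w := by rw [h7]; exact hx
  exact h8.1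

/-- the orders: `gcd(2, q - 1) |PΩ₈⁺(q)| = (q⁷ - q³) |PSp₆(q)|` -/
theorem card_rel {K : Type} [Field K] [Fintype K] (hK : Fintype.card K = Fintype.card F) :
    Nat.gcd 2 (Fintype.card F - 1) * Nat.card (POmega F (quadFormPlus 4 F)) =
      (Fintype.card F ^ 7 - Fintype.card F ^ 3) * Nat.card (PSp 3 K) := by
  have hq := Fintype.one_lt_card (α := F)
  have h1 := psp_eq (F := K) (m := 3) (by norm_num)
  have h2 := oplus_eq (F := F) (m := 4) le_rfl
  change Nat.gcd 2 (Fintype.card K - 1) * Nat.card (PSp 3 K) = Fintype.card K ^ (3 ^ 2) * prB (Fintype.card K) 3 at h1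
  change Nat.gcd 4 (Fintype.card F ^ 4 - 1) * Nat.card (POmega F (quadFormPlus 4 F)) =
    Fintype.card F ^ (4 * (4 - 1)) * ((Fintype.card F ^ 4 - 1) * prB (Fintype.card F) (4 - 1)) at h2
  rw [hK] at h1
  have h3 : Fintype.card F ^ 7 - Fintype.card F ^ 3 = Fintype.card F ^ 3 * (Fintype.card F ^ 4 - 1) := by
    rw [Nat.mul_sub, mul_one, ← pow_add]
  have h4 : Nat.gcd 4 (Fintype.card F ^ 4 - 1) * Nat.card (POmega F (quadFormPlus 4 F)) =
      (Fintype.card F ^ 7 - Fintype.card F ^ 3) * (Nat.gcd 2 (Fintype.card F - 1) * Nat.card (PSp 3 K)) := by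
    rw [h1, h2, h3]
    ring
  have h5 : Nat.gcd 4 (Fintype.card F ^ 4 - 1) = Nat.gcd 2 (Fintype.card F - 1) * Nat.gcd 2 (Fintype.card F - 1) := by
    rcases Nat.even_or_odd (Fintype.card F) with he | ho
    · obtain ⟨k, hk⟩ := he
      have h6 : Nat.gcd 2 (Fintype.card F - 1) = 1 := by
        exact Nat.coprime_two_left.2 ⟨k - 1, by omega⟩
      have h7 : Nat.gcd 4 (Fintype.card F ^ 4 - 1) = 1 := by
        have h8 : Nat.Coprime (2 ^ 2) (Fintype.card F ^ 4 - 1) := by
          apply Nat.Coprime.pow_left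
          rw [Nat.coprime_two_left]
          have h9 : Even (Fintype.card F ^ 4) := (Nat.even_pow.2 ⟨⟨k, hk⟩, by norm_num⟩)
          have h10 : 1 ≤ Fintype.card F ^ 4 := Nat.one_le_pow _ _ (by omega)
          obtain ⟨l, hl⟩ := h9
          exact ⟨l - 1, by omega⟩
        exact h8
      rw [h6, h7]
    · obtain ⟨k, hk⟩ := ho
      have h6 : Nat.gcd 2 (Fintype.card F - 1) = 2 := Nat.gcd_eq_left (by omega)
      have h7 : Nat.gcd 4 (Fintype.card F ^ 4 - 1) = 4 := by
        apply Nat.gcd_eq_left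
        have h8 : Fintype.card F ^ 4 - 1 = (Fintype.card F ^ 2 + 1) * ((Fintype.card F + 1) * (Fintype.card F - 1)) := by
          have e1 := Nat.sq_sub_sq (Fintype.card F ^ 2) 1
          have e2 := Nat.sq_sub_sq (Fintype.card F) 1
          rw [one_pow, ← pow_mul] at e1
          rw [one_pow] at e2
          rw [← e2]
          exact e1
        rw [h8]
        apply Dvd.dvd.mul_left
        rw [show 4 = 2 * 2 by norm_num]
        exact Nat.mul_dvd_mul (by omega) (by omega)
      rw [h6, h7]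
  have h6 : 0 < Nat.gcd 2 (Fintype.card F - 1) := Nat.gcd_pos_of_pos_left _ (by norm_num)
  apply Nat.eq_of_mul_eq_mul_left h6
  rw [← mul_assoc, ← h5, h4]
  ring

end Cfsg.Agent.H886.O8R
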